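import Cfsg.Agent.H518.HT.ExcTw
import Cfsg.Agent.H681.HT.Quat

/-!
# Row 2 for `F₄(q)`, `E₆(q)`, `E₇(q)`, `E₈(q)`, `²E₆(q)`, `q` odd (S4933, box 2.exc, helper518)

`row_f4`, `row_e6`, `row_e7`, `row_e8`, `row_e6t`: the fields `f4 .. e6t` of `TwoRows` (`H892/HT/Disp.lean`), from `IPTwo`.
-/

set_option autoImplicit false

namespace Cfsg.Agent.H518.HT

open Cfsg.Lie Cfsg.Agent.H316.HT Cfsg.Agent.H681.HT Cfsg.Agent.H681.IP

theorem row_of_qpair (hIP : IPTwo) {S : Type*} [Group S] (h : QPair S) : Row 2 S := by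
  obtain ⟨i, j, w, k, h1, h2, h3, h4, h5, h6, h7, h8, h9, h10⟩ := h
  have e1 : w * (w * j * w⁻¹) * w⁻¹ = j := by
    have := h6.eq
    calc w * (w * j * w⁻¹) * w⁻¹ = w ^ 2 * j * (w ^ 2)⁻¹ := by simp only [pow_two, mul_inv_rev, mul_assoc]
      _ = j := by rw [this, mul_inv_cancel_right]
  have c3 : Commute j (w * i * w⁻¹) := by
    have h11 := h8.map (MulAut.conj w).toMonoidHom
    change Commute (w * i * w⁻¹) (w * (w * j * w⁻¹) * w⁻¹) at h11
    rw [e1] at h11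
    exact h11.symm
  refine row_of_swap hIP h1 ?_ h3 (fun h => h10 ?_) h4 h5 h6 h7 h8 c3 h9
  · rw [show j ^ 4 = (j ^ 2) ^ 2 from pow_mul j 2 2, h2, ← pow_mul, h1]
  · have h12 : j * i * j⁻¹ = i := by rw [← h, mul_inv_cancel_right]
    rw [h3] at h12
    rw [pow_two]
    nth_rewrite 1 [← h12]
    exact inv_mul_cancel i

theorem row_f4 (hIP : IPTwo) (F : Type) [Field F] [Fintype F] (ho : Odd (Fintype.card F)) :
    Row 2 ↥(chevF4.group F) := row_of_qpair hIP (qpair_F4 ho)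

theorem row_e6 (hIP : IPTwo) (F : Type) [Field F] [Fintype F] (ho : Odd (Fintype.card F)) :
    Row 2 ↥(chevE6.group F) := row_of_qpair hIP (qpair_E6 ho)

theorem row_e7 (hIP : IPTwo) (F : Type) [Field F] [Fintype F] (ho : Odd (Fintype.card F)) :
    Row 2 ↥(chevE7.group F) := row_of_qpair hIP (qpair_E7 ho)

theorem row_e8 (hIP : IPTwo) (F : Type) [Field F] [Fintype F] (ho : Odd (Fintype.card F)) :
    Row 2 ↥(chevE8.group F) := row_of_qpair hIP (qpair_E8 ho)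

theorem row_e6t (hIP : IPTwo) (F : Type) [Field F] [Fintype F] (q : ℕ) (hq : IsPrimePow q)
    (hF : Fintype.card F = q ^ 2) (ho : Odd q) : Row 2 ↥(twistedE6 F q) :=
  row_of_qpair hIP (qpair_twistedE6 hq hF ho)

end Cfsg.Agent.H518.HT
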