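import Cfsg.Agent.H518.HT.Quad4
import Cfsg.Agent.H92.QS.StHom

/-!
# `QPair` for `F₄(q)`, `E₆(q)`, `E₇(q)`, `E₈(q)`, `q` odd (S4933, box 2.exc, helper518)
-/

set_option autoImplicit false

namespace Cfsg.Agent.H518.HT

open Cfsg.Lie Cfsg.Agent.TitsThree.KExcRT
open Cfsg.Agent.ChevalleyStructure Cfsg.Agent.ChevalleyStructure.Elts

theorem qpair_of_table {D : ChevalleyDatum} (hD : InList D) {r : Fin 4 → Fin 4 → ℕ} {s : Fin 4 → Fin 4 → ℤ}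
    (ha : RTa D r) (hb : RTb D r s) (hc : RTc D r) (hd : RTd s) (hsym : ∀ a b, a ≠ b → s b a = s a b)
    (hneg : ∀ a b, a ≠ b → r b a = D.neg (r a b)) {K : Type*} [Field K] [Finite K] (h2 : (2 : K) ≠ 0) :
    QPair ↥(D.group K) := by
  obtain ⟨φ, hφ⟩ := Cfsg.Agent.H92.QS.exists_hom_St (n := 1) (K := K) ha hb hc hd hsym hneg
  refine qpair_of_SL4 ((StTheta.theta hD K).comp φ) fun h => ?_
  have h1 := congrArg (Subtype.val) h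
  rw [MonoidHom.comp_apply, MonoidHom.comp_apply, hφ, hφ, StTheta.coe_theta, StTheta.coe_theta, StTheta.thetaGL_stGen,
    StTheta.thetaGL_stGen] at h1
  have h3 := xG_injective hD (ha 0 2 (by decide)) h1
  have h4 : ((s 0 2 : ℤ) : K) * ((s 0 2 : ℤ) : K) = 1 := by
    have := congrArg (Int.cast : ℤ → K) (hd 0 2)
    rwa [Int.cast_mul, Int.cast_one] at this
  apply h2
  linear_combination (((s 0 2 : ℤ) : K)) * h3 - 2 * h4

theorem two_ne {F : Type*} [Field F] [Fintype F] (ho : Odd (Fintype.card F)) : (2 : F) ≠ 0 := by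
  intro h2
  have h1 := FiniteField.even_card_iff_char_two (F := F)
  have h3 : ringChar F = 2 := by
    have h4 : ringChar F ∣ 2 := by
      rw [← ringChar.spec]
      exact_mod_cast h2
    rcases (Nat.dvd_prime Nat.prime_two).1 h4 with h5 | h5
    · exact absurd h5 (CharP.ringChar_ne_one (R := F))
    · exact h5
  have h6 := h1.1 h3
  rw [Nat.odd_iff] at ho
  omega

/-- roots -/
def rF4 : Fin 4 → Fin 4 → ℕ := ![![0, 0, 1, 2], ![47, 0, 24, 26], ![46, 23, 0, 25], ![45, 21, 22, 0]]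
/-- signs -/
def sF4 : Fin 4 → Fin 4 → ℤ := ![![1, 1, 1, 1], ![1, 1, 1, 1], ![1, 1, 1, 1], ![1, 1, 1, 1]]

theorem tabF4 : RTa chevF4 rF4 ∧ RTb chevF4 rF4 sF4 ∧ RTc chevF4 rF4 ∧ RTd sF4 ∧
    (∀ a b, a ≠ b → sF4 b a = sF4 a b) ∧ (∀ a b, a ≠ b → rF4 b a = chevF4.neg (rF4 a b)) := by decide +kernel

theorem qpair_F4 {F : Type*} [Field F] [Fintype F] (ho : Odd (Fintype.card F)) : QPair ↥(chevF4.group F) :=
  qpair_of_table (by simp) tabF4.1 tabF4.2.1 tabF4.2.2.1 tabF4.2.2.2.1 tabF4.2.2.2.2.1 tabF4.2.2.2.2.2 (two_ne ho)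

/-- roots -/
def rE6 : Fin 4 → Fin 4 → ℕ := ![![0, 0, 1, 2], ![71, 0, 46, 47], ![70, 25, 0, 39], ![69, 24, 32, 0]]
/-- signs -/
def sE6 : Fin 4 → Fin 4 → ℤ := ![![1, -1, 1, 1], ![-1, 1, -1, 1], ![1, -1, 1, 1], ![1, 1, 1, 1]]

theorem tabE6 : RTa chevE6 rE6 ∧ RTb chevE6 rE6 sE6 ∧ RTc chevE6 rE6 ∧ RTd sE6 ∧
    (∀ a b, a ≠ b → sE6 b a = sE6 a b) ∧ (∀ a b, a ≠ b → rE6 b a = chevE6.neg (rE6 a b)) := by decide +kernel

theorem qpair_E6 {F : Type*} [Field F] [Fintype F] (ho : Odd (Fintype.card F)) : QPair ↥(chevE6.group F) :=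
  qpair_of_table (by simp) tabE6.1 tabE6.2.1 tabE6.2.2.1 tabE6.2.2.2.1 tabE6.2.2.2.2.1 tabE6.2.2.2.2.2 (two_ne ho)

/-- roots -/
def rE7 : Fin 4 → Fin 4 → ℕ := ![![0, 0, 1, 2], ![125, 0, 93, 94], ![124, 32, 0, 73], ![123, 31, 52, 0]]
/-- signs -/
def sE7 : Fin 4 → Fin 4 → ℤ := ![![1, -1, 1, 1], ![-1, 1, -1, 1], ![1, -1, 1, 1], ![1, 1, 1, 1]]

theorem tabE7 : RTa chevE7 rE7 ∧ RTb chevE7 rE7 sE7 ∧ RTc chevE7 rE7 ∧ RTd sE7 ∧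
    (∀ a b, a ≠ b → sE7 b a = sE7 a b) ∧ (∀ a b, a ≠ b → rE7 b a = chevE7.neg (rE7 a b)) := by decide +kernel

theorem qpair_E7 {F : Type*} [Field F] [Fintype F] (ho : Odd (Fintype.card F)) : QPair ↥(chevE7.group F) :=
  qpair_of_table (by simp) tabE7.1 tabE7.2.1 tabE7.2.2.1 tabE7.2.2.2.1 tabE7.2.2.2.2.1 tabE7.2.2.2.2.2 (two_ne ho)

/-- roots -/
def rE8 : Fin 4 → Fin 4 → ℕ := ![![0, 0, 1, 2], ![239, 0, 120, 122], ![238, 119, 0, 121], ![237, 117, 118, 0]]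
/-- signs -/
def sE8 : Fin 4 → Fin 4 → ℤ := ![![1, 1, 1, 1], ![1, 1, 1, 1], ![1, 1, 1, 1], ![1, 1, 1, 1]]

theorem tabE8 : RTa chevE8 rE8 ∧ RTb chevE8 rE8 sE8 ∧ RTc chevE8 rE8 ∧ RTd sE8 ∧
    (∀ a b, a ≠ b → sE8 b a = sE8 a b) ∧ (∀ a b, a ≠ b → rE8 b a = chevE8.neg (rE8 a b)) := by decide +kernel

theorem qpair_E8 {F : Type*} [Field F] [Fintype F] (ho : Odd (Fintype.card F)) : QPair ↥(chevE8.group F) :=
  qpair_of_table (by simp) tabE8.1 tabE8.2.1 tabE8.2.2.1 tabE8.2.2.2.1 tabE8.2.2.2.2.1 tabE8.2.2.2.2.2 (two_ne ho)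

end Cfsg.Agent.H518.HT
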