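import Cfsg.Agent.H518.HT.ExcQ
import Cfsg.Agent.H91.E6Fix

/-!
# `QPair` for `²E₆(q)`, `q` odd (S4933, box 2.exc, helper518)

The `A₃` of `rE6` consists of roots fixed by the graph automorphism, so `SL₄(q) → ²E₆(q)`.
-/

set_option autoImplicit false

namespace Cfsg.Agent.H518.HT

open Cfsg.Lie Cfsg.Agent.TitsThree.KExcRT Matrix
open Cfsg.Agent.ChevalleyStructure Cfsg.Agent.ChevalleyStructure.Elts
open Cfsg.Agent.ChevalleyStructure.TwE6Basic (sg hE6 epsE exists_frob)

theorem rho_rE6 : ∀ a b, a ≠ b → H91.E6Fix.rho (rE6 a b) = rE6 a b ∧ ∀ h, epsE ⟨rE6 a b, h⟩ = 1 := by decide +kernel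

theorem rE6_lt : ∀ a b, rE6 a b < 72 := by decide +kernel

theorem map_tv {R S : Type*} [Field R] [Field S] (g : R →+* S) {n : ℕ} {a b : Fin n} (hab : a ≠ b) (c : R) :
    Matrix.SpecialLinearGroup.map g (Matrix.SpecialLinearGroup.transvection hab c) =
      Matrix.SpecialLinearGroup.transvection hab (g c) := by
  apply Subtype.ext
  change ((1 + Matrix.single a b c : Matrix (Fin n) (Fin n) R)).map g = 1 + Matrix.single a b (g c)
  ext i j
  rw [Matrix.map_apply, Matrix.add_apply, Matrix.add_apply, map_add]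
  congr 1
  · by_cases h : i = j
    · subst h; simp
    · simp [h]
  · rw [Matrix.single_apply, Matrix.single_apply]
    split_ifs <;> simp

/-- homomorphisms from `SL_n` are determined by the transvections -/
theorem hom_ext {K : Type*} [Field K] {n : ℕ} {Y : Type*} [Group Y] {f g : SpecialLinearGroup (Fin n) K →* Y}
    (h : ∀ a b (hab : a ≠ b) c, f (SpecialLinearGroup.transvection hab c) = g (SpecialLinearGroup.transvection hab c)) :
    f = g := by
  apply MonoidHom.eq_of_eqOn_dense (Cfsg.Agent.LieClassical.SLGen.closure_transvections (ι := Fin n) (F := K))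
  rintro _ ⟨a, b, hab, c, rfl⟩
  exact h a b hab c

theorem qpair_twistedE6 {K : Type*} [Field K] [Fintype K] {q : ℕ} (hq : IsPrimePow q)
    (hK : Fintype.card K = q ^ 2) (ho : Odd q) : QPair ↥(twistedE6 K q) := by
  have h2 : (2 : K) ≠ 0 := two_ne (by rw [hK]; exact ho.pow)
  obtain ⟨φ, hφ, hqq⟩ := exists_frob hq hK
  obtain ⟨ψ, hψ⟩ := Cfsg.Agent.H92.QS.exists_hom_St (n := 1) (K := K) tabE6.1 tabE6.2.1 tabE6.2.2.1 tabE6.2.2.2.1
    tabE6.2.2.2.2.1 tabE6.2.2.2.2.2
  let k : Subfield K := RingHom.eqLocusField φ (RingHom.id K)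
  have hk : ∀ c : k, φ (c : K) = c := fun c => c.2
  let P : SpecialLinearGroup (Fin 4) k →* GL chevE6.Idx K :=
    ((StTheta.thetaGL hE6 K).comp ψ).comp (SpecialLinearGroup.map k.subtype)
  have hP : ∀ a b (hab : a ≠ b) (c : k), P (SpecialLinearGroup.transvection hab c) =
      xG hE6 (rE6 a b) ((sE6 a b : K) * (c : K)) := by
    intro a b hab c
    change StTheta.thetaGL hE6 K (ψ (SpecialLinearGroup.map k.subtype (SpecialLinearGroup.transvection hab c))) = _
    rw [map_tv, hψ, StTheta.thetaGL_stGen]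
    rfl
  have hfix : ∀ A, sg φ (P A) = P A := by
    have h3 : (sg φ).comp P = P := by
      refine hom_ext fun a b hab c => ?_
      change sg φ (P _) = P _
      rw [hP, H91.E6Fix.sg_xG φ (rE6_lt a b), (rho_rE6 a b hab).1, (rho_rE6 a b hab).2, map_mul, map_intCast, hk,
        Int.cast_one, one_mul]
    exact fun A => DFunLike.congr_fun h3 A
  let f : SpecialLinearGroup (Fin 4) k →* ↥(twistedE6 K q) := P.codRestrict (twistedE6 K q) fun A =>
    H91.E6Fix.mem_twisted_of_fixed hφ (fun t => by rw [hφ, hφ, hqq]) (StTheta.thetaGL_mem hE6 _) (hfix A)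
  refine qpair_of_SL4 f fun h => ?_
  have h1 := congrArg (Subtype.val) h
  change P _ = P _ at h1
  rw [hP, hP] at h1
  have h3 := xG_injective hE6 (tabE6.1 0 2 (by decide)) h1
  have h4 : ((sE6 0 2 : ℤ) : K) * ((sE6 0 2 : ℤ) : K) = 1 := by
    have := congrArg (Int.cast : ℤ → K) (tabE6.2.2.2.1 0 2)
    rwa [Int.cast_mul, Int.cast_one] at this
  have h5 : ((1 : k) : K) = 1 := rfl
  have h6 : ((-1 : k) : K) = -1 := rfl
  rw [h5, h6] at h3
  apply h2
  linear_combination (((sE6 0 2 : ℤ) : K)) * h3 - 2 * h4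

end Cfsg.Agent.H518.HT
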