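import Mathlib

/-!
# The commuting pair `Q₈`, `Q₈ʷ` of `SL₄(K)` (S4933, box 2.exc, helper518)

* `QPair S` : elements `i, j, w ∈ S` with `⟨i, j⟩ = Q₈`, `w` of `2`-power order, `w²` centralizing `Q₈`, and `Q₈` commuting
  with `Q₈ʷ`;
* `qpair_of_SL4` : every homomorphism `φ : SL₄(K) →* S`, `K` finite of odd order, with `φ(t₀₂(1)) ≠ φ(t₀₂(-1))`, gives it.
-/

set_option autoImplicit false

namespace Cfsg.Agent.H518.HT

open Matrix

/-- a pair of commuting quaternion groups swapped by a `2`-element -/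
def QPair (S : Type*) [Group S] : Prop :=
  ∃ (i j w : S) (k : ℕ), i ^ 4 = 1 ∧ j ^ 2 = i ^ 2 ∧ j * i * j⁻¹ = i⁻¹ ∧ w ^ (2 ^ k) = 1 ∧ Commute (w ^ 2) i ∧
    Commute (w ^ 2) j ∧ Commute i (w * i * w⁻¹) ∧ Commute i (w * j * w⁻¹) ∧ Commute j (w * j * w⁻¹) ∧ i ^ 2 ≠ 1

section
variable {K : Type*} [Field K]

/-- `i` -/
def mi : SpecialLinearGroup (Fin 4) K :=
  ⟨!![0, 1, 0, 0; -1, 0, 0, 0; 0, 0, 1, 0; 0, 0, 0, 1], by
    simp [Matrix.det_succ_row_zero, Fin.sum_univ_succ, Fin.succAbove]⟩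

/-- `iʷ` -/
def mi' : SpecialLinearGroup (Fin 4) K :=
  ⟨!![1, 0, 0, 0; 0, 1, 0, 0; 0, 0, 0, 1; 0, 0, -1, 0], by
    simp [Matrix.det_succ_row_zero, Fin.sum_univ_succ, Fin.succAbove]⟩

/-- `j` -/
def mj (x y : K) (h : x ^ 2 + y ^ 2 = -1) : SpecialLinearGroup (Fin 4) K :=
  ⟨!![x, y, 0, 0; y, -x, 0, 0; 0, 0, 1, 0; 0, 0, 0, 1], by
    simp [Matrix.det_succ_row_zero, Fin.sum_univ_succ, Fin.succAbove]
    linear_combination -h⟩

/-- `jʷ` -/
def mj' (x y : K) (h : x ^ 2 + y ^ 2 = -1) : SpecialLinearGroup (Fin 4) K :=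
  ⟨!![1, 0, 0, 0; 0, 1, 0, 0; 0, 0, x, y; 0, 0, y, -x], by
    simp [Matrix.det_succ_row_zero, Fin.sum_univ_succ, Fin.succAbove]
    linear_combination -h⟩

/-- `w` -/
def mw : SpecialLinearGroup (Fin 4) K :=
  ⟨!![0, 0, 1, 0; 0, 0, 0, 1; 1, 0, 0, 0; 0, 1, 0, 0], by
    simp [Matrix.det_succ_row_zero, Fin.sum_univ_succ, Fin.succAbove]⟩

/-- `i²` -/
def mz : SpecialLinearGroup (Fin 4) K :=
  ⟨!![-1, 0, 0, 0; 0, -1, 0, 0; 0, 0, 1, 0; 0, 0, 0, 1], by
    simp [Matrix.det_succ_row_zero, Fin.sum_univ_succ, Fin.succAbove]⟩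

theorem em {A B C : SpecialLinearGroup (Fin 4) K} (h : A.1 * B.1 = C.1) : A * B = C := Subtype.ext h

theorem em2 {A B C D : SpecialLinearGroup (Fin 4) K} (h : A.1 * B.1 = C.1 * D.1) : A * B = C * D := Subtype.ext h

theorem em3 {A B C D : SpecialLinearGroup (Fin 4) K} (h : A.1 * B.1 * C.1 = D.1) : A * B * C = D := Subtype.ext h

theorem mi_sq : (mi : SpecialLinearGroup (Fin 4) K) * mi = mz := by
  apply em
  ext a b
  fin_cases a <;> fin_cases b <;> simp [mi, mz, Matrix.mul_apply, Fin.sum_univ_four]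

theorem mz_sq : (mz : SpecialLinearGroup (Fin 4) K) * mz = 1 := by
  apply em
  ext a b
  fin_cases a <;> fin_cases b <;> simp [mz, Matrix.mul_apply, Fin.sum_univ_four]

theorem mw_sq : (mw : SpecialLinearGroup (Fin 4) K) * mw = 1 := by
  apply em
  ext a b
  fin_cases a <;> fin_cases b <;> simp [mw, Matrix.mul_apply, Fin.sum_univ_four]

theorem mj_sq (x y : K) (h : x ^ 2 + y ^ 2 = -1) : mj x y h * mj x y h = mz := by
  have h1 : x * x + y * y = -1 := by linear_combination h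
  have h2 : y * y + x * x = -1 := by linear_combination h
  apply em
  ext a b
  fin_cases a <;> fin_cases b <;> simp [mj, mz, Matrix.mul_apply, Fin.sum_univ_four, h1, h2] <;> ring

theorem rel (x y : K) (h : x ^ 2 + y ^ 2 = -1) : mi * mj x y h * mi = mj x y h := by
  apply em3
  ext a b
  fin_cases a <;> fin_cases b <;> simp [mj, mi, Matrix.mul_apply, Fin.sum_univ_four]

theorem mw_mi : (mw : SpecialLinearGroup (Fin 4) K) * mi = mi' * mw := by
  apply em2
  ext a b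
  fin_cases a <;> fin_cases b <;> simp [mw, mi, mi', Matrix.mul_apply, Fin.sum_univ_four]

theorem mw_mj (x y : K) (h : x ^ 2 + y ^ 2 = -1) : mw * mj x y h = mj' x y h * mw := by
  apply em2
  ext a b
  fin_cases a <;> fin_cases b <;> simp [mw, mj, mj', Matrix.mul_apply, Fin.sum_univ_four]

theorem c1 : (mi : SpecialLinearGroup (Fin 4) K) * mi' = mi' * mi := by
  apply em2
  ext a b
  fin_cases a <;> fin_cases b <;> simp [mi, mi', Matrix.mul_apply, Fin.sum_univ_four]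

theorem c2 (x y : K) (h : x ^ 2 + y ^ 2 = -1) : mi * mj' x y h = mj' x y h * mi := by
  apply em2
  ext a b
  fin_cases a <;> fin_cases b <;> simp [mi, mj', Matrix.mul_apply, Fin.sum_univ_four]

theorem c3 (x y : K) (h : x ^ 2 + y ^ 2 = -1) : mj x y h * mj' x y h = mj' x y h * mj x y h := by
  apply em2
  ext a b
  fin_cases a <;> fin_cases b <;> simp [mj, mj', Matrix.mul_apply, Fin.sum_univ_four]

theorem mz_tv : (mz : SpecialLinearGroup (Fin 4) K) * SpecialLinearGroup.transvection (show (0 : Fin 4) ≠ 2 by decide) 1 =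
    SpecialLinearGroup.transvection (show (0 : Fin 4) ≠ 2 by decide) (-1) * mz := by
  apply Subtype.ext
  change (mz : SpecialLinearGroup (Fin 4) K).1 * (1 + Matrix.single 0 2 1) = (1 + Matrix.single 0 2 (-1)) * mz.1
  ext a b
  fin_cases a <;> fin_cases b <;> simp [mz, Matrix.mul_apply, Fin.sum_univ_four, Matrix.single_apply, Matrix.one_apply]

end

theorem qpair_of_SL4 {K : Type*} [Field K] [Finite K] {S : Type*} [Group S]
    (φ : SpecialLinearGroup (Fin 4) K →* S)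
    (hφ : φ (SpecialLinearGroup.transvection (show (0 : Fin 4) ≠ 2 by decide) 1) ≠
      φ (SpecialLinearGroup.transvection (show (0 : Fin 4) ≠ 2 by decide) (-1))) : QPair S := by
  obtain ⟨p, hp⟩ := CharP.exists K
  have : Fact p.Prime := ⟨(CharP.char_is_prime_or_zero K p).resolve_right (CharP.char_ne_zero_of_finite K p)⟩
  have : NeZero p := ⟨this.1.ne_zero⟩
  obtain ⟨x, y, hxy⟩ := CharP.sq_add_sq K p (-1)
  have h : (x : K) ^ 2 + (y : K) ^ 2 = -1 := by rw [hxy]; push_cast; rfl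
  have hw : φ mw * φ mw = 1 := by rw [← map_mul, mw_sq, map_one]
  have e1 : φ mw * φ mi * (φ mw)⁻¹ = φ mi' := by
    rw [mul_inv_eq_iff_eq_mul, ← map_mul, ← map_mul, mw_mi]
  have e2 : φ mw * φ (mj x y h) * (φ mw)⁻¹ = φ (mj' x y h) := by
    rw [mul_inv_eq_iff_eq_mul, ← map_mul, ← map_mul, mw_mj]
  have e3 : φ mi ^ 2 = φ mz := by rw [pow_two, ← map_mul, mi_sq]
  refine ⟨φ mi, φ (mj x y h), φ mw, 1, ?_, ?_, ?_, ?_, ?_, ?_, ?_, ?_, ?_, ?_⟩
  · rw [show φ mi ^ 4 = (φ mi ^ 2) ^ 2 from pow_mul _ 2 2, e3, pow_two, ← map_mul, mz_sq, map_one]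
  · rw [e3, pow_two, ← map_mul, mj_sq]
  · rw [mul_inv_eq_iff_eq_mul, eq_inv_mul_iff_mul_eq, ← map_mul, ← map_mul, ← mul_assoc, rel]
  · rw [pow_one, pow_two, hw]
  · rw [pow_two, hw]; exact Commute.one_left _
  · rw [pow_two, hw]; exact Commute.one_left _
  · rw [e1]; exact (show (mi : SpecialLinearGroup (Fin 4) K) * mi' = mi' * mi from c1) |> fun e => by
      rw [Commute, SemiconjBy, ← map_mul, ← map_mul, e]
  · rw [e2, Commute, SemiconjBy, ← map_mul, ← map_mul, c2]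
  · rw [e2, Commute, SemiconjBy, ← map_mul, ← map_mul, c3]
  · intro h0
    rw [e3] at h0
    apply hφ
    have h3 := congrArg φ (mz_tv (K := K))
    rwa [map_mul, map_mul, h0, one_mul, mul_one] at h3

end Cfsg.Agent.H518.HT
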